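import Cfsg.Agent.H419.EP.Iface

/-!
# Two kill criteria for extremely primitive groups (helper807)

`IsPre S T A`: `T ≤ S ≤ G` is the preimage of `A ≤ Q` under a surjection `S → Q` (`G` any group).

* `IsPre.nm`: an element `t ∈ T` normalising `T ⊓ T^x` (`x ∉ T`) lies in `T^x`;
* `IsPre.sw`: if the squares of the elements of `T` lie in the subgroup `A0` and `T ≰ A0`, then `T ⊓ T^x ≰ A0`.
-/

set_option autoImplicit false

namespace Cfsg.Agent.H807.EP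

open Subgroup Cfsg.Agent.H284 Cfsg.Agent.H419.EP
open scoped MatrixGroups

section

variable {Q : Type*} [Group Q] {A : Subgroup Q} {Γ : Subgroup (MulAut Q)}

/-- `T ≤ S` is the preimage of `A` under a surjection from `S` onto `Q`. -/
def IsPre {G : Type*} [Group G] (S T : Subgroup G) (A : Subgroup Q) : Prop :=
  ∃ π : S →* Q, Function.Surjective π ∧ T ≤ S ∧ ∀ s : S, (s : G) ∈ T ↔ π s ∈ A

theorem isPre_hat {F : Type*} [Field F] {ι : Type} [Fintype ι] [DecidableEq ι] {S : Subgroup (GL ι F)}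
    (m : Model Q S) (A : Subgroup Q) : IsPre S (m.hat A) A :=
  ⟨m.π, m.surj, m.hat_le A, fun s => m.mem_hat_iff s⟩

theorem IsPre.map {G G' : Type*} [Group G] [Group G'] {S T : Subgroup G} (p : IsPre S T A) (e : G ≃* G') :
    IsPre (S.map e.toMonoidHom) (T.map e.toMonoidHom) A := by
  obtain ⟨π, h1, h2, h3⟩ := p
  let f : S ≃* S.map e.toMonoidHom := S.equivMapOfInjective e.toMonoidHom e.injective
  refine ⟨π.comp f.symm.toMonoidHom, ?_, Subgroup.map_mono h2, ?_⟩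
  · exact h1.comp f.symm.surjective
  · intro s
    obtain ⟨s, rfl⟩ := f.surjective s
    have e1 : (π.comp f.symm.toMonoidHom) (f s) = π s := by
      show π (f.symm (f s)) = π s
      rw [MulEquiv.symm_apply_apply]
    rw [e1, ← h3 s]
    exact Subgroup.mem_map_iff_mem e.injective

variable {G : Type*} [Group G] {S T : Subgroup G} (h : EPT A Γ) (p : IsPre S T A)

include h p

/-- **(NM)** -/
theorem IsPre.nm {x t : G} (hxS : x ∈ S) (hx : x ∉ T) (ht : t ∈ T)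
    (hn : ∀ k ∈ T, x⁻¹ * k * x ∈ T → x⁻¹ * (t * k * t⁻¹) * x ∈ T) : x⁻¹ * t * x ∈ T := by
  obtain ⟨π, h1, h2, h3⟩ := p
  have hX : π ⟨x, hxS⟩ ∉ A := fun e => hx ((h3 ⟨x, hxS⟩).2 e)
  have htS := h2 ht
  have hcj : ∀ s : S, π s ∈ cj (π ⟨x, hxS⟩) A ↔ x⁻¹ * s * x ∈ T := by
    intro s
    rw [mem_cj, ← map_inv, ← map_mul, ← map_mul, ← h3]
    rfl
  have key := h.norm_aut hX (K := A ⊓ cj (π ⟨x, hxS⟩) A) le_rfl (fun σ hσ k hk => hσ k hk) (h.M0 _ hX)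
    (a := π ⟨t, htS⟩) ((h3 ⟨t, htS⟩).1 ht) ?_
  · exact (hcj ⟨t, htS⟩).1 key
  · rintro k ⟨hk1, hk2⟩
    obtain ⟨s, rfl⟩ := h1 k
    have hs1 := (h3 s).2 hk1
    have hs2 := (hcj s).1 hk2
    refine ⟨A.mul_mem (A.mul_mem ((h3 ⟨t, htS⟩).1 ht) hk1) (A.inv_mem ((h3 ⟨t, htS⟩).1 ht)), ?_⟩
    show π ⟨t, htS⟩ * π s * (π ⟨t, htS⟩)⁻¹ ∈ cj (π ⟨x, hxS⟩) A
    rw [← map_inv, ← map_mul, ← map_mul, hcj]
    exact hn s hs1 hs2

/-- **(SW)** -/
theorem IsPre.sw {A0 : Subgroup G} (h0 : ∀ a ∈ T, a * a ∈ A0) {x : G} (hxS : x ∈ S) (hx : x ∉ T)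
    (hle : ∀ k ∈ T, x⁻¹ * k * x ∈ T → k ∈ A0) : T ≤ A0 := by
  obtain ⟨π, h1, h2, h3⟩ := p
  have hX : π ⟨x, hxS⟩ ∉ A := fun e => hx ((h3 ⟨x, hxS⟩).2 e)
  have hcj : ∀ s : S, π s ∈ cj (π ⟨x, hxS⟩) A ↔ x⁻¹ * s * x ∈ T := by
    intro s
    rw [mem_cj, ← map_inv, ← map_mul, ← map_mul, ← h3]
    rfl
  set K : Subgroup Q := Subgroup.closure {b | ∃ a ∈ A, b = a * a} with hK
  have hKA : K ≤ A := by
    rw [hK, Subgroup.closure_le]
    rintro _ ⟨a, ha, rfl⟩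
    exact A.mul_mem ha ha
  have hKn : ∀ σ ∈ Γ, ∀ k ∈ K, σ k ∈ K := by
    intro σ hσ k hk
    have h4 : K ≤ K.comap (σ : Q ≃* Q).toMonoidHom := by
      conv_lhs => rw [hK]
      rw [Subgroup.closure_le]
      rintro _ ⟨a, ha, rfl⟩
      refine Subgroup.subset_closure ⟨σ a, (h.inv σ hσ a).2 ha, ?_⟩
      exact map_mul σ a a
    exact h4 hk
  have hKne : K ≠ ⊥ := by
    intro e
    have h4 : ∀ a ∈ A, a * a = 1 := by
      intro a ha
      have h5 : a * a ∈ K := Subgroup.subset_closure ⟨a, ha, rfl⟩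
      rwa [e, mem_bot] at h5
    have hcomm : ∀ a ∈ A, ∀ b ∈ A, a * b = b * a := by
      intro a ha b hb
      have e1 := h4 (a * b) (A.mul_mem ha hb)
      have ea : a⁻¹ = a := inv_eq_of_mul_eq_one_left (h4 a ha)
      have eb : b⁻¹ = b := inv_eq_of_mul_eq_one_left (h4 b hb)
      have e2 : (a * b)⁻¹ = a * b := inv_eq_of_mul_eq_one_left e1
      rw [mul_inv_rev, ea, eb] at e2
      exact e2.symm
    have hnil : Group.IsNilpotent A := by
      exact @CommGroup.isNilpotent A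
        { (inferInstance : Group A) with mul_comm := fun a b => Subtype.ext (hcomm a a.2 b b.2) }
    have h5 := (h.nilp A le_rfl (fun σ hσ k hk => (h.inv σ hσ k).2 hk) hnil h.ne).2.2.2.1 _ hX
    exact h.M0 _ hX h5.1
  -- the squares of the elements of `T` generate a subgroup of `A0` mapping onto `K`
  have hlift : ∀ k ∈ K, ∃ s : S, (s : G) ∈ A0 ∧ (s : G) ∈ T ∧ π s = k := by
    have h4 : K ≤ ((A0 ⊓ T).subgroupOf S).map π := by
      rw [hK, Subgroup.closure_le]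
      rintro _ ⟨a, ha, rfl⟩
      obtain ⟨s, rfl⟩ := h1 a
      have hs := (h3 s).2 ha
      exact ⟨s * s, mem_inf.2 ⟨h0 s hs, T.mul_mem hs hs⟩, map_mul π s s⟩
    intro k hk
    obtain ⟨s, hs, e⟩ := h4 hk
    exact ⟨s, (mem_inf.1 hs).1, (mem_inf.1 hs).2, e⟩
  intro t ht
  have htS := h2 ht
  obtain ⟨k, hk, m, hm, e⟩ := h.fac_A hKA hKn hKne hX (a := π ⟨t, htS⟩) ((h3 ⟨t, htS⟩).1 ht)
  obtain ⟨s, hs0, hsT, rfl⟩ := hlift k hk
  have em : π (s⁻¹ * ⟨t, htS⟩) = m := by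
    rw [map_mul, map_inv, e, inv_mul_cancel_left]
  have hmT : ((s⁻¹ * ⟨t, htS⟩ : S) : G) ∈ T := by
    rw [h3, em]
    exact (mem_inf.1 hm).1
  have hmx := (mem_inf.1 hm).2
  rw [← em, hcj] at hmx
  have h5 := hle _ hmT hmx
  have e6 : t = s * ((s⁻¹ * ⟨t, htS⟩ : S) : G) := by
    push_cast
    rw [mul_inv_cancel_left]
  rw [e6]
  exact A0.mul_mem hs0 h5

end

end Cfsg.Agent.H807.EP
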