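import Cfsg.Agent.H807.EP.Crit
import Cfsg.Agent.H883.Bridge
import Cfsg.Agent.H778.EP.OmAsm

/-!
# S3499, orthogonal groups: pairs of complementary subspaces (helper807)

`V = W ⊥ W'` with hyperbolic pairs `e₁, f₁ ∈ W`, `e₂, f₂ ∈ W'` (any field).

* `kill_nondeg`: `T = Stab(W) ∩ Ω` is no point stabiliser of an extremely primitive group. With
  `x = E(e₁, e₂) E(f₁, f₂)` the group `T ∩ T^x` centralises `E(e₁, e₂)` and `E(f₁, f₂)`, and these two are interchanged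
  by the element `t` of `T` with `e₁ ↔ -f₁`, `e₂ ↔ -f₂`, which does not lie in `T^x`;
* `kill_swap`: the same if `T = Stab({W, W'}) ∩ Ω` contains elements interchanging `W` and `W'`: with `x = E(s, w)`,
  `s ∈ W` singular, `w ∈ W'` nonsingular, no element of `T ∩ T^x` interchanges `W` and `W'`;
* `kill_ts`: the same for `W`, `W'` totally singular, `x = E(s, s')`, `s, s' ∈ W`.
-/

set_option autoImplicit false
set_option linter.unusedSectionVars false

namespace Cfsg.Agent.H807.EP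

open Subgroup Cfsg.Agent.H284 Cfsg.Agent.H419.EP QuadraticMap
open Cfsg.Agent.LieClassical.OrthCore Cfsg.Agent.LieClassical.OrthTrans Cfsg.Agent.LieClassical.OrthFinite
open Cfsg.Agent.H883.Bridge

theorem conj_comm {G : Type*} [Group G] {t g y z : G} (h1 : t * z = y * t) (h2 : g * z = z * g) :
    (t * g * t⁻¹) * y = y * (t * g * t⁻¹) := by
  have e : y = t * z * t⁻¹ := by rw [h1, mul_assoc, mul_inv_cancel, mul_one]
  rw [e]
  calc t * g * t⁻¹ * (t * z * t⁻¹) = t * (g * z) * t⁻¹ := by group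
    _ = t * (z * g) * t⁻¹ := by rw [h2]
    _ = t * z * t⁻¹ * (t * g * t⁻¹) := by group

theorem comm_prod {G : Type*} [Group G] {k y z : G} (h1 : k * y = y * k) (h2 : k * z = z * k) :
    (y * z)⁻¹ * k * (y * z) = k := by
  rw [mul_assoc, ← mul_assoc k, h1, mul_assoc y, h2, ← mul_assoc y, inv_mul_cancel_left]

section Geometry

variable {F V : Type*} [Field F] [AddCommGroup V] [Module F V] {Q : QuadraticForm F V} {W W' : Submodule F V}

theorem conj_app (x g : V ≃ₗ[F] V) (v : V) : x ((x⁻¹ * g * x) v) = g (x v) :=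
  LinearEquiv.apply_symm_apply x (g (x v))

/-- `V = W ⊥ W'` -/
structure Perp (Q : QuadraticForm F V) (W W' : Submodule F V) : Prop where
  perp : ∀ w ∈ W, ∀ w' ∈ W', polar Q w w' = 0
  disj : ∀ v ∈ W, v ∈ W' → v = 0
  sup : ∀ v : V, ∃ w ∈ W, ∃ w' ∈ W', v = w + w'

theorem Perp.symm (hP : Perp Q W W') : Perp Q W' W where
  perp := fun w hw w' hw' => by rw [polar_comm]; exact hP.perp w' hw' w hw
  disj := fun v hv hv' => hP.disj v hv' hv
  sup := fun v => by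
    obtain ⟨w, hw, w', hw', e⟩ := hP.sup v
    exact ⟨w', hw', w, hw, by rw [e, add_comm]⟩

theorem uniq (hd : ∀ v ∈ W, v ∈ W' → v = 0) {w u w' u' : V} (hw : w ∈ W) (hu : u ∈ W) (hw' : w' ∈ W') (hu' : u' ∈ W')
    (e : w + w' = u + u') : w = u ∧ w' = u' := by
  have e1 : w - u = u' - w' := by rw [sub_eq_sub_iff_add_eq_add, e, add_comm]
  have h1 : w - u = 0 := hd _ (W.sub_mem hw hu) (by rw [e1]; exact W'.sub_mem hu' hw')
  refine ⟨sub_eq_zero.1 h1, ?_⟩
  rw [h1] at e1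
  exact (sub_eq_zero.1 e1.symm).symm

/-- a vector of `W` orthogonal to `W` is zero -/
theorem Perp.zero (hQ : Nondeg Q) (hP : Perp Q W W') {u : V} (hu : u ∈ W) (h : ∀ w ∈ W, polar Q u w = 0) : u = 0 := by
  apply hQ
  intro y
  obtain ⟨w, hw, w', hw', rfl⟩ := hP.sup y
  rw [polar_add_right, h w hw, hP.perp u hu w' hw', add_zero]

theorem Perp.stab (hQ : Nondeg Q) (hP : Perp Q W W') {g : V ≃ₗ[F] V} (hg : g ∈ O Q) (hs : g ∈ stab W) :
    g ∈ stab W' := by
  have key : ∀ g : V ≃ₗ[F] V, g ∈ O Q → g ∈ Cfsg.Agent.H883.Bridge.stab W → ∀ w' ∈ W', g w' ∈ W' := by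
    intro g hg hs w' hw'
    obtain ⟨u, hu, u', hu', e⟩ := hP.sup (g w')
    have h0 : u = 0 := by
      apply hP.zero hQ hu
      intro w hw
      have h1 : g (g⁻¹ w) = w := LinearEquiv.apply_symm_apply g w
      have h2 : g⁻¹ w ∈ W := (hs _).2 (by rw [h1]; exact hw)
      have h3 : polar Q (g w') w = 0 := by
        rw [← h1, polar_map hg, polar_comm]
        exact hP.perp _ h2 w' hw'
      rw [e, polar_add_left, polar_comm Q u' w, hP.perp w hw u' hu', add_zero] at h3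
      exact h3
    rw [e, h0, zero_add]
    exact hu'
  intro v
  refine ⟨key g hg hs v, fun hv => ?_⟩
  have h1 := key g⁻¹ ((O Q).inv_mem hg) (Subgroup.inv_mem _ hs) _ hv
  have h2 : g⁻¹ (g v) = v := LinearEquiv.symm_apply_apply g v
  rwa [h2] at h1

end Geometry

section Nondeg

variable {F V : Type*} [Field F] [AddCommGroup V] [Module F V] {Q : QuadraticForm F V} {W W' : Submodule F V}
  {e₁ f₁ e₂ f₂ : V}

/-- hyperbolic pairs `e₁, f₁ ∈ W` and `e₂, f₂ ∈ W'`, `W ⊥ W'` -/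
structure Frm (Q : QuadraticForm F V) (W W' : Submodule F V) (e₁ f₁ e₂ f₂ : V) : Prop extends Perp Q W W' where
  h1 : Hyp Q e₁ f₁
  h2 : Hyp Q e₂ f₂
  e1 : e₁ ∈ W
  f1 : f₁ ∈ W
  e2 : e₂ ∈ W'
  f2 : f₂ ∈ W'

namespace Frm

variable (h : Frm Q W W' e₁ f₁ e₂ f₂)

include h

theorem e1e2 : polar Q e₁ e₂ = 0 := h.perp _ h.e1 _ h.e2
theorem e1f2 : polar Q e₁ f₂ = 0 := h.perp _ h.e1 _ h.f2
theorem f1e2 : polar Q f₁ e₂ = 0 := h.perp _ h.f1 _ h.e2
theorem f1f2 : polar Q f₁ f₂ = 0 := h.perp _ h.f1 _ h.f2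
theorem e2e1 : polar Q e₂ e₁ = 0 := polar_zero_of_comm h.e1e2
theorem f2e1 : polar Q f₂ e₁ = 0 := polar_zero_of_comm h.e1f2
theorem e2f1 : polar Q e₂ f₁ = 0 := polar_zero_of_comm h.f1e2
theorem f2f1 : polar Q f₂ f₁ = 0 := polar_zero_of_comm h.f1f2

/-- `E(e₁, e₂)` -/
noncomputable def y₁ : V ≃ₗ[F] V := siegel Q e₁ e₂ h.h1.left h.e1e2
/-- `E(f₁, f₂)` -/
noncomputable def y₂ : V ≃ₗ[F] V := siegel Q f₁ f₂ h.h1.right h.f1f2
/-- `E(f₁, e₂)` -/
noncomputable def z₁ : V ≃ₗ[F] V := siegel Q f₁ e₂ h.h1.right h.f1e2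
/-- `E(e₁, f₂)` -/
noncomputable def z₂ : V ≃ₗ[F] V := siegel Q e₁ f₂ h.h1.left h.e1f2

theorem y₁_apply (v : V) : h.y₁ v = v + polar Q e₁ v • e₂ - polar Q e₂ v • e₁ := by
  rw [y₁, siegel_apply, h.h2.left, zero_mul, zero_smul, sub_zero]

theorem y₂_apply (v : V) : h.y₂ v = v + polar Q f₁ v • f₂ - polar Q f₂ v • f₁ := by
  rw [y₂, siegel_apply, h.h2.right, zero_mul, zero_smul, sub_zero]

theorem z₁_apply (v : V) : h.z₁ v = v + polar Q f₁ v • e₂ - polar Q e₂ v • f₁ := by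
  rw [z₁, siegel_apply, h.h2.left, zero_mul, zero_smul, sub_zero]

theorem z₂_apply (v : V) : h.z₂ v = v + polar Q e₁ v • f₂ - polar Q f₂ v • e₁ := by
  rw [z₂, siegel_apply, h.h2.right, zero_mul, zero_smul, sub_zero]

/-- the element `x` -/
noncomputable def x : V ≃ₗ[F] V := h.y₁ * h.y₂

/-- the element `t` -/
noncomputable def t : V ≃ₗ[F] V := h.y₁ * (h.y₂ * (h.y₁ * (h.z₁ * (h.z₂ * h.z₁))))

theorem x_mem : h.x ∈ E Q := E_mul (siegel_mem_E _ _) (siegel_mem_E _ _)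

theorem t_mem : h.t ∈ E Q :=
  E_mul (siegel_mem_E _ _) (E_mul (siegel_mem_E _ _) (E_mul (siegel_mem_E _ _) (E_mul (siegel_mem_E _ _)
    (E_mul (siegel_mem_E _ _) (siegel_mem_E _ _)))))

theorem x_apply (v : V) : h.x v = v + polar Q f₁ v • f₂ - polar Q f₂ v • f₁ + (polar Q e₁ v - polar Q f₂ v) • e₂ -
    (polar Q e₂ v + polar Q f₁ v) • e₁ := by
  show h.y₁ (h.y₂ v) = _
  rw [h.y₁_apply, h.y₂_apply]
  simp only [polar_add_right, polar_sub_right, polar_smul_right, h.h1.pair, h.e1f2, h.h2.pair, h.e2f1, smul_eq_mul]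
  module

theorem t_apply (v : V) : h.t v = v - polar Q f₁ v • (e₁ + f₁) - polar Q e₁ v • (e₁ + f₁) - polar Q f₂ v • (e₂ + f₂)
    - polar Q e₂ v • (e₂ + f₂) := by
  show h.y₁ (h.y₂ (h.y₁ (h.z₁ (h.z₂ (h.z₁ v))))) = _
  simp only [h.y₁_apply, h.y₂_apply, h.z₁_apply, h.z₂_apply]
  simp only [polar_add_right, polar_sub_right, polar_smul_right, h.h1.pair, h.h1.pair', h.h2.pair, h.h2.pair',
    h.h1.polar_left, h.h1.polar_right, h.h2.polar_left, h.h2.polar_right, h.e1e2, h.e1f2, h.f1e2, h.f1f2,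
    h.e2e1, h.e2f1, h.f2e1, h.f2f1, smul_eq_mul]
  module

theorem x_W {u : V} (hu : u ∈ W) : h.x u = (u - polar Q f₁ u • e₁) + (polar Q f₁ u • f₂ + polar Q e₁ u • e₂) := by
  rw [h.x_apply, polar_zero_of_comm (h.perp u hu _ h.e2), polar_zero_of_comm (h.perp u hu _ h.f2)]
  module

theorem x_W' {u : V} (hu : u ∈ W') :
    h.x u = (-(polar Q f₂ u • f₁) - polar Q e₂ u • e₁) + (u - polar Q f₂ u • e₂) := by
  rw [h.x_apply, h.perp _ h.e1 u hu, h.perp _ h.f1 u hu]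
  module

theorem x_W_mem {u : V} (hu : u ∈ W) : u - polar Q f₁ u • e₁ ∈ W ∧ polar Q f₁ u • f₂ + polar Q e₁ u • e₂ ∈ W' :=
  ⟨W.sub_mem hu (W.smul_mem _ h.e1), W'.add_mem (W'.smul_mem _ h.f2) (W'.smul_mem _ h.e2)⟩

theorem x_W'_mem {u : V} (hu : u ∈ W') :
    -(polar Q f₂ u • f₁) - polar Q e₂ u • e₁ ∈ W ∧ u - polar Q f₂ u • e₂ ∈ W' :=
  ⟨W.sub_mem (W.neg_mem (W.smul_mem _ h.f1)) (W.smul_mem _ h.e1), W'.sub_mem hu (W'.smul_mem _ h.e2)⟩

theorem x_e1 : h.x e₁ = f₂ := by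
  rw [h.x_apply, h.h1.pair', h.f2e1, h.h1.polar_left, h.e2e1]
  module

theorem x_f1 : h.x f₁ = f₁ + e₂ := by
  rw [h.x_apply, h.h1.polar_right, h.f2f1, h.h1.pair, h.e2f1]
  module

theorem x_e2 : h.x e₂ = -f₁ := by
  rw [h.x_apply, h.f1e2, h.h2.pair', h.e1e2, h.h2.polar_left]
  module

theorem x_f2 : h.x f₂ = -e₁ + f₂ := by
  rw [h.x_apply, h.f1f2, h.h2.polar_right, h.e1f2, h.h2.pair]
  module

/-- the elements of `T ⊓ T^x` -/
theorem M0 {g k : V ≃ₗ[F] V} (hg : g ∈ O Q) (hs : g ∈ stab W) (hs' : g ∈ stab W') (hk : k ∈ stab W)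
    (hk' : k ∈ stab W') (e : ∀ v, h.x (k v) = g (h.x v)) :
    ∃ μ ν : F, μ * ν = 1 ∧ g e₁ = ν • e₁ ∧ g f₁ = μ • f₁ ∧ g e₂ = μ • e₂ ∧ g f₂ = ν • f₂ := by
  have hge1 : g e₁ ∈ W := (hs _).1 h.e1
  have hgf1 : g f₁ ∈ W := (hs _).1 h.f1
  have hge2 : g e₂ ∈ W' := (hs' _).1 h.e2
  have hgf2 : g f₂ ∈ W' := (hs' _).1 h.f2
  -- `g f₂ = ν f₂`
  obtain ⟨ν, hν⟩ : ∃ ν : F, g f₂ = ν • f₂ := by
    have hu : k e₁ ∈ W := (hk _).1 h.e1
    have e1 := e e₁
    rw [h.x_e1, h.x_W hu] at e1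
    have e2 : k e₁ - polar Q f₁ (k e₁) • e₁ + (polar Q f₁ (k e₁) • f₂ + polar Q e₁ (k e₁) • e₂) = 0 + g f₂ := by
      rw [e1, zero_add]
    obtain ⟨e3, e4⟩ := uniq h.disj (h.x_W_mem hu).1 W.zero_mem (h.x_W_mem hu).2 hgf2 e2
    have e5 : polar Q e₁ (k e₁) = 0 := by
      rw [sub_eq_zero.1 e3, polar_smul_right, h.h1.polar_left, smul_zero]
    rw [e5, zero_smul, add_zero] at e4
    exact ⟨_, e4.symm⟩
  -- `g f₁ = μ f₁`
  obtain ⟨μ, hμ⟩ : ∃ μ : F, g f₁ = μ • f₁ := by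
    have hu : k e₂ ∈ W' := (hk' _).1 h.e2
    have e1 := e e₂
    rw [h.x_e2, h.x_W' hu, map_neg] at e1
    have e2 : -(polar Q f₂ (k e₂) • f₁) - polar Q e₂ (k e₂) • e₁ + (k e₂ - polar Q f₂ (k e₂) • e₂) = -g f₁ + 0 := by
      rw [e1, add_zero]
    obtain ⟨e3, e4⟩ := uniq h.disj (h.x_W'_mem hu).1 (W.neg_mem hgf1) (h.x_W'_mem hu).2 W'.zero_mem e2
    have e5 : polar Q e₂ (k e₂) = 0 := by
      rw [sub_eq_zero.1 e4, polar_smul_right, h.h2.polar_left, smul_zero]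
    rw [e5, zero_smul, sub_zero, neg_inj] at e3
    exact ⟨_, e3.symm⟩
  -- `g e₂ = μ e₂`
  have h3 : μ * ν = 1 ∧ g e₂ = μ • e₂ := by
    have hu : k f₁ ∈ W := (hk _).1 h.f1
    have e1 := e f₁
    rw [h.x_f1, h.x_W hu, map_add] at e1
    obtain ⟨e3, e4⟩ := uniq h.disj (h.x_W_mem hu).1 hgf1 (h.x_W_mem hu).2 hge2 e1
    set a := polar Q e₁ (k f₁) with ha
    set b := polar Q f₁ (k f₁) with hb
    have e5 : a * ν = 1 := by
      have h4 := polar_map hg e₂ f₂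
      rw [← e4, hν, polar_smul_right, polar_add_left, polar_smul_left, polar_smul_left, h.h2.polar_right, h.h2.pair] at h4
      simpa [mul_comm] using h4
    have e6 : b = 0 := by
      have h4 : Q (g e₂) = 0 := by rw [mem_O.1 hg, h.h2.left]
      rw [← e4, Q_add, QuadraticMap.map_smul, QuadraticMap.map_smul, h.h2.left, h.h2.right, polar_smul_left,
        polar_smul_right, h.h2.pair'] at h4
      have h5 : b * a = 0 := by simpa using h4
      rcases mul_eq_zero.1 h5 with h6 | h6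
      · exact h6
      · rw [h6, zero_mul] at e5
        exact absurd e5 zero_ne_one
    rw [e6, zero_smul, zero_add] at e4
    rw [e6, zero_smul, sub_zero] at e3
    have e7 : a = μ := by
      rw [ha, e3, hμ, polar_smul_right, h.h1.pair, smul_eq_mul, mul_one]
    rw [e7] at e5 e4
    exact ⟨e5, e4.symm⟩
  refine ⟨μ, ν, h3.1, ?_, hμ, h3.2, hν⟩
  -- `g e₁ = ν e₁`
  have hu : k f₂ ∈ W' := (hk' _).1 h.f2
  have e1 := e f₂
  rw [h.x_f2, h.x_W' hu, map_add, map_neg] at e1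
  obtain ⟨e3, -⟩ := uniq h.disj (h.x_W'_mem hu).1 (W.neg_mem hge1) (h.x_W'_mem hu).2 hgf2 e1
  set c := polar Q e₂ (k f₂) with hc
  set d := polar Q f₂ (k f₂) with hd
  have e4 : g e₁ = d • f₁ + c • e₁ := by
    rw [← neg_inj, ← e3]
    module
  have e5 : c * μ = 1 := by
    have h4 := polar_map hg e₁ f₁
    rw [e4, hμ, polar_smul_right, polar_add_left, polar_smul_left, polar_smul_left, h.h1.polar_right, h.h1.pair] at h4
    simpa [mul_comm] using h4
  have e6 : d = 0 := by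
    have h4 : Q (g e₁) = 0 := by rw [mem_O.1 hg, h.h1.left]
    rw [e4, Q_add, QuadraticMap.map_smul, QuadraticMap.map_smul, h.h1.left, h.h1.right, polar_smul_left,
      polar_smul_right, h.h1.pair'] at h4
    have h5 : d * c = 0 := by simpa using h4
    rcases mul_eq_zero.1 h5 with h6 | h6
    · exact h6
    · rw [h6, zero_mul] at e5
      exact absurd e5 zero_ne_one
  have e7 : c = ν := by
    have h4 : c * (μ * ν) = ν := by rw [← mul_assoc, e5, one_mul]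
    rwa [h3.1, mul_one] at h4
  rw [e4, e6, zero_smul, zero_add, e7]

/-- they commute with `E(e₁, e₂)` and `E(f₁, f₂)` -/
theorem comm_y {g : V ≃ₗ[F] V} (hg : g ∈ O Q) {μ ν : F} (hμν : μ * ν = 1) (h1 : g e₁ = ν • e₁) (h2 : g f₁ = μ • f₁)
    (h3 : g e₂ = μ • e₂) (h4 : g f₂ = ν • f₂) : g * h.y₁ = h.y₁ * g ∧ g * h.y₂ = h.y₂ * g := by
  have p1 : ∀ v, polar Q e₁ (g v) = μ * polar Q e₁ v := by
    intro v
    rw [← polar_map hg e₁ v, h1, polar_smul_left, smul_eq_mul, ← mul_assoc, hμν, one_mul]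
  have p2 : ∀ v, polar Q f₁ (g v) = ν * polar Q f₁ v := by
    intro v
    rw [← polar_map hg f₁ v, h2, polar_smul_left, smul_eq_mul, ← mul_assoc, mul_comm ν, hμν, one_mul]
  have p3 : ∀ v, polar Q e₂ (g v) = ν * polar Q e₂ v := by
    intro v
    rw [← polar_map hg e₂ v, h3, polar_smul_left, smul_eq_mul, ← mul_assoc, mul_comm ν, hμν, one_mul]
  have p4 : ∀ v, polar Q f₂ (g v) = μ * polar Q f₂ v := by
    intro v
    rw [← polar_map hg f₂ v, h4, polar_smul_left, smul_eq_mul, ← mul_assoc, hμν, one_mul]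
  constructor
  · ext v
    show g (h.y₁ v) = h.y₁ (g v)
    rw [h.y₁_apply, h.y₁_apply, map_sub, map_add, map_smul, map_smul, h1, h3, p1, p3]
    module
  · ext v
    show g (h.y₂ v) = h.y₂ (g v)
    rw [h.y₂_apply, h.y₂_apply, map_sub, map_add, map_smul, map_smul, h2, h4, p2, p4]
    module

theorem t_y : h.t * h.y₁ = h.y₂ * h.t ∧ h.t * h.y₂ = h.y₁ * h.t := by
  constructor
  · ext v
    show h.t (h.y₁ v) = h.y₂ (h.t v)
    simp only [h.t_apply, h.y₁_apply, h.y₂_apply]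
    simp only [polar_add_right, polar_sub_right, polar_smul_right, h.h1.pair, h.h1.pair', h.h2.pair, h.h2.pair',
      h.h1.polar_left, h.h1.polar_right, h.h2.polar_left, h.h2.polar_right, h.e1e2, h.e1f2, h.f1e2, h.f1f2,
      h.e2e1, h.e2f1, h.f2e1, h.f2f1, smul_eq_mul]
    module
  · ext v
    show h.t (h.y₂ v) = h.y₁ (h.t v)
    simp only [h.t_apply, h.y₁_apply, h.y₂_apply]
    simp only [polar_add_right, polar_sub_right, polar_smul_right, h.h1.pair, h.h1.pair', h.h2.pair, h.h2.pair',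
      h.h1.polar_left, h.h1.polar_right, h.h2.polar_left, h.h2.polar_right, h.e1e2, h.e1f2, h.f1e2, h.f1f2,
      h.e2e1, h.e2f1, h.f2e1, h.f2f1, smul_eq_mul]
    module

end Frm

/-- **the stabiliser of a nondegenerate subspace** -/
theorem kill_nondeg [FiniteDimensional F V] {P : Type*} [Group P] {A : Subgroup P} {Γ : Subgroup (MulAut P)}
    (hE : EPT A Γ) (hQ : Nondeg Q) {T : Subgroup (V ≃ₗ[F] V)} (p : IsPre (E Q) T A)
    (hT : T = Cfsg.Agent.H883.Bridge.stab W ⊓ E Q) (h : Frm Q W W' e₁ f₁ e₂ f₂) : False := by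
  have hTW : ∀ g ∈ T, g ∈ O Q ∧ g ∈ Cfsg.Agent.H883.Bridge.stab W ∧ g ∈ Cfsg.Agent.H883.Bridge.stab W' := by
    intro g hg
    rw [hT] at hg
    have h1 := E_le_O (mem_inf.1 hg).2
    exact ⟨h1, (mem_inf.1 hg).1, h.toPerp.stab hQ h1 (mem_inf.1 hg).1⟩
  have hx : h.x ∉ T := by
    intro hx
    have h1 := ((hTW _ hx).2.1 e₁).1 h.e1
    rw [h.x_e1] at h1
    exact h.h2.right_ne (h.disj _ h1 h.f2)
  have ht : h.t ∈ T := by
    rw [hT]
    refine ⟨mem_stab_of_le fun w hw => ?_, h.t_mem⟩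
    rw [h.t_apply, polar_zero_of_comm (h.perp w hw _ h.e2), polar_zero_of_comm (h.perp w hw _ h.f2), zero_smul,
      sub_zero, sub_zero]
    exact W.sub_mem (W.sub_mem hw (W.smul_mem _ (W.add_mem h.e1 h.f1))) (W.smul_mem _ (W.add_mem h.e1 h.f1))
  have hn : ∀ k ∈ T, h.x⁻¹ * k * h.x ∈ T → h.x⁻¹ * (h.t * k * h.t⁻¹) * h.x ∈ T := by
    intro g hg hgx
    obtain ⟨g1, g2, g3⟩ := hTW g hg
    obtain ⟨k1, k2, k3⟩ := hTW _ hgx
    obtain ⟨μ, ν, h1, h2, h3, h4, h5⟩ := h.M0 g1 g2 g3 k2 k3 (conj_app h.x g)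
    obtain ⟨c1, c2⟩ := h.comm_y g1 h1 h2 h3 h4 h5
    obtain ⟨t1, t2⟩ := h.t_y
    have c3 := conj_comm t2 c2
    have c4 := conj_comm t1 c1
    have c5 : h.x⁻¹ * (h.t * g * h.t⁻¹) * h.x = h.t * g * h.t⁻¹ := comm_prod c3 c4
    have c6 : h.t * g * h.t⁻¹ ∈ T := T.mul_mem (T.mul_mem ht hg) (T.inv_mem ht)
    exact (congrArg (fun z => z ∈ T) c5).mpr c6
  have key := p.nm hE h.x_mem hx ht hn
  have h1 := ((hTW _ key).2.1 e₁).1 h.e1
  have h2 : h.x ((h.x⁻¹ * h.t * h.x) e₁) = 0 + -e₂ := by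
    rw [conj_app h.x h.t, h.x_e1, h.t_apply, h.f1f2, h.e1f2, h.h2.polar_right, h.h2.pair]
    module
  set w := (h.x⁻¹ * h.t * h.x) e₁ with hw
  rw [h.x_W h1] at h2
  obtain ⟨e3, e4⟩ := uniq h.disj (h.x_W_mem h1).1 W.zero_mem (h.x_W_mem h1).2 (W'.neg_mem h.e2) h2
  have e5 : polar Q e₁ w = 0 := by
    rw [sub_eq_zero.1 e3, polar_smul_right, h.h1.polar_left, smul_zero]
  have e6 := congrArg (polar Q f₂) e4
  rw [e5, zero_smul, add_zero, polar_smul_right, h.h2.polar_right, polar_neg_right, h.h2.pair', smul_zero] at e6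
  exact one_ne_zero (neg_eq_zero.1 e6.symm)

end Nondeg

section Swap

variable {F V : Type*} [Field F] [AddCommGroup V] [Module F V] {Q : QuadraticForm F V} {W W' : Submodule F V}

/-- `g` maps `W` onto `W` and `W'` onto `W'` -/
def Fixes (W W' : Submodule F V) (g : V ≃ₗ[F] V) : Prop := (∀ v, v ∈ W ↔ g v ∈ W) ∧ ∀ v, v ∈ W' ↔ g v ∈ W'

/-- `g` interchanges `W` and `W'` -/
def Swaps (W W' : Submodule F V) (g : V ≃ₗ[F] V) : Prop := (∀ v, v ∈ W ↔ g v ∈ W') ∧ ∀ v, v ∈ W' ↔ g v ∈ W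

theorem sq_mem {g : V ≃ₗ[F] V} (h : Fixes W W' g ∨ Swaps W W' g) : g * g ∈ Cfsg.Agent.H883.Bridge.stab W := by
  intro v
  show v ∈ W ↔ g (g v) ∈ W
  rcases h with h | h
  · rw [h.1, h.1]
  · rw [h.1, h.2]

theorem not_fs_nondeg (hP : Perp Q W W') {s s' w : V} (hs : s ∈ W) (hs' : s' ∈ W) (hss : polar Q s s' ≠ 0)
    (hs0 : Q s = 0) (hw : w ∈ W') (hwne : w ≠ 0) (hsw : polar Q s w = 0) :
    ¬ (Fixes W W' (siegel Q s w hs0 hsw) ∨ Swaps W W' (siegel Q s w hs0 hsw)) := by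
  rintro (h1 | h1)
  · have h2 := (h1.1 s').1 hs'
    have h3 : siegel Q s w hs0 hsw s' = (s' - (Q w * polar Q s s') • s) + polar Q s s' • w := by
      rw [siegel_apply, polar_zero_of_comm (hP.perp s' hs' w hw)]
      module
    rw [h3] at h2
    have h4 : polar Q s s' • w ∈ W := (W.add_mem_iff_right (W.sub_mem hs' (W.smul_mem _ hs))).1 h2
    rcases smul_eq_zero.1 (hP.disj _ h4 (W'.smul_mem _ hw)) with h5 | h5
    · exact hss h5
    · exact hwne h5
  · have h2 := (h1.1 s).1 hs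
    have h3 : siegel Q s w hs0 hsw s = s := by
      rw [siegel_apply, polar_self_of_sing hs0, polar_zero_of_comm hsw]
      module
    rw [h3] at h2
    apply hss
    rw [hP.disj s hs h2, polar_zero_left]

theorem not_fs_ts (hd : ∀ v ∈ W, v ∈ W' → v = 0) (hW : ∀ v ∈ W, Q v = 0) {s s' v₀ : V} (hs : s ∈ W) (hs' : s' ∈ W)
    (hv₀ : v₀ ∈ W') (hne : polar Q s v₀ • s' - polar Q s' v₀ • s ≠ 0) (hss : polar Q s s' = 0) :
    ¬ (Fixes W W' (siegel Q s s' (hW s hs) hss) ∨ Swaps W W' (siegel Q s s' (hW s hs) hss)) := by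
  have hmem : polar Q s v₀ • s' - polar Q s' v₀ • s ∈ W := W.sub_mem (W.smul_mem _ hs') (W.smul_mem _ hs)
  rintro (h1 | h1)
  · have h2 := (h1.2 v₀).1 hv₀
    rw [siegel_apply, hW s' hs', zero_mul, zero_smul, sub_zero, add_sub_assoc] at h2
    exact hne (hd _ hmem ((W'.add_mem_iff_right hv₀).1 h2))
  · have h2 := (h1.1 s).1 hs
    rw [siegel_apply, polar_self_of_sing (hW s hs), polar_zero_of_comm hss, zero_smul, zero_smul, mul_zero, zero_smul,
      sub_zero, sub_zero, add_zero] at h2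
    apply hne
    rw [hd s hs h2, polar_zero_left, zero_smul, smul_zero, sub_zero]

/-- **two orthogonal nondegenerate subspaces which are interchanged** -/
theorem kill_swap {P : Type*} [Group P] {A : Subgroup P} {Γ : Subgroup (MulAut P)}
    (hE : EPT A Γ) (hQ : Nondeg Q) {T : Subgroup (V ≃ₗ[F] V)} (p : IsPre (E Q) T A)
    (hT : ∀ g ∈ T, Fixes W W' g ∨ Swaps W W' g) (hP : Perp Q W W') {s s' w : V} (hs : s ∈ W) (hs' : s' ∈ W)
    (hss : polar Q s s' ≠ 0) (hs0 : Q s = 0) (hw : w ∈ W') (hw0 : Q w ≠ 0) :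
    T ≤ Cfsg.Agent.H883.Bridge.stab W := by
  have hTO : ∀ g ∈ T, g ∈ O Q := by
    obtain ⟨π, h1, h2, h3⟩ := p
    exact fun g hg => E_le_O (h2 hg)
  have hsne : s ≠ 0 := by
    rintro rfl
    exact hss (polar_zero_left _ _)
  have hwne : w ≠ 0 := by
    rintro rfl
    exact hw0 (QuadraticMap.map_zero _)
  have hsw := hP.perp s hs w hw
  set x := siegel Q s w hs0 hsw with hx
  have hxW : ∀ v ∈ W, x v = (v - (Q w * polar Q s v) • s) + polar Q s v • w := by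
    intro v hv
    rw [hx, siegel_apply, polar_zero_of_comm (hP.perp v hv w hw)]
    module
  have hxW' : ∀ v ∈ W', x v = -(polar Q w v • s) + v := by
    intro v hv
    rw [hx, siegel_apply, hP.perp s hs v hv]
    module
  have hxs : x s = s := by
    rw [hxW s hs, polar_self_of_sing hs0, mul_zero, zero_smul, zero_smul, sub_zero, add_zero]
  have hxT : x ∉ T := fun hxT => not_fs_nondeg hP hs hs' hss hs0 hw hwne hsw (hT x hxT)
  refine p.sw hE (A0 := Cfsg.Agent.H883.Bridge.stab W) (fun a ha => sq_mem (hT a ha)) (siegel_mem_E _ _) hxT ?_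
  intro g hg hgx
  have hxk : ∀ v, x ((x⁻¹ * g * x) v) = g (x v) := conj_app x g
  set k := x⁻¹ * g * x with hk
  have hgO := hTO g hg
  rcases hT g hg with h1 | h1
  · exact h1.1
  exfalso
  have hgs : g s ∈ W' := (h1.1 s).1 hs
  rcases hT k hgx with h2 | h2
  · have h3 : k s ∈ W := (h2.1 s).1 hs
    have h4 := hxk s
    rw [hxs, hxW _ h3] at h4
    have h5 : k s - (Q w * polar Q s (k s)) • s + polar Q s (k s) • w = 0 + g s := by rw [h4, zero_add]
    obtain ⟨h6, -⟩ := uniq hP.disj (W.sub_mem h3 (W.smul_mem _ hs)) W.zero_mem (W'.smul_mem _ hw) hgs h5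
    have h7 : polar Q s (k s) = 0 := by
      rw [sub_eq_zero.1 h6, polar_smul_right, polar_self_of_sing hs0, smul_zero]
    rw [h7, mul_zero, zero_smul, sub_zero] at h6
    exact hsne ((LinearEquiv.map_eq_zero_iff k).1 h6)
  · -- `g s ⊥ w^⊥ ∩ W'`
    have key : ∀ u ∈ W', polar Q w u = 0 → polar Q (g s) u = 0 := by
      intro u hu hwu
      obtain ⟨v, rfl⟩ := k.surjective u
      have hv : v ∈ W := (h2.1 v).2 hu
      have h3 := hxk v
      rw [hxW' _ hu, hwu, zero_smul, neg_zero, zero_add] at h3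
      have h4 : x v ∈ W := (h1.1 _).2 (by rw [← h3]; exact hu)
      have h5 := h4
      rw [hxW v hv] at h5
      have h6 : polar Q s v • w ∈ W := (W.add_mem_iff_right (W.sub_mem hv (W.smul_mem _ hs))).1 h5
      have h7 := hP.disj _ h6 (W'.smul_mem _ hw)
      have h8 : polar Q s v = 0 := by
        rcases smul_eq_zero.1 h7 with h9 | h9
        · exact h9
        · exact absurd h9 hwne
      have h9 : x v = v := by
        rw [hxW v hv, h8, mul_zero, zero_smul, zero_smul, sub_zero, add_zero]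
      rw [h3, h9, polar_map hgO, h8]
    obtain ⟨u₀, hu₀, hwu⟩ : ∃ u₀ ∈ W', polar Q w u₀ = 1 := by
      by_contra hcon
      push Not at hcon
      apply hwne
      apply hP.symm.zero hQ hw
      intro u hu
      by_contra hne
      exact hcon ((polar Q w u)⁻¹ • u) (W'.smul_mem _ hu) (by
        rw [polar_smul_right, smul_eq_mul, inv_mul_cancel₀ hne])
    have h3 : g s - polar Q (g s) u₀ • w = 0 := by
      apply hP.symm.zero hQ (W'.sub_mem hgs (W'.smul_mem _ hw))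
      intro u hu
      have h4 := key (u - polar Q w u • u₀) (W'.sub_mem hu (W'.smul_mem _ hu₀)) (by
        rw [polar_sub_right, polar_smul_right, hwu, smul_eq_mul, mul_one, sub_self])
      rw [polar_sub_right, polar_smul_right, sub_eq_zero, smul_eq_mul] at h4
      rw [polar_sub_left, polar_smul_left, h4, smul_eq_mul, mul_comm, sub_self]
    have h4 := sub_eq_zero.1 h3
    have h5 : Q (g s) = 0 := by rw [mem_O.1 hgO, hs0]
    rw [h4, QuadraticMap.map_smul, smul_eq_mul] at h5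
    have h6 : polar Q (g s) u₀ = 0 := by
      rcases mul_eq_zero.1 h5 with h6 | h6
      · exact mul_self_eq_zero.1 h6
      · exact absurd h6 hw0
    rw [h6, zero_smul] at h4
    exact hsne ((LinearEquiv.map_eq_zero_iff g).1 h4)

/-- **two complementary totally singular subspaces** -/
theorem kill_ts {P : Type*} [Group P] {A : Subgroup P} {Γ : Subgroup (MulAut P)}
    (hE : EPT A Γ) {T : Subgroup (V ≃ₗ[F] V)} (p : IsPre (E Q) T A)
    (hT : ∀ g ∈ T, Fixes W W' g ∨ Swaps W W' g) (hd : ∀ v ∈ W, v ∈ W' → v = 0) (hW : ∀ v ∈ W, Q v = 0)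
    {s s' v₀ : V} (hs : s ∈ W) (hs' : s' ∈ W) (hv₀ : v₀ ∈ W') (hne : polar Q s v₀ • s' - polar Q s' v₀ • s ≠ 0) :
    T ≤ Cfsg.Agent.H883.Bridge.stab W := by
  have hpol : ∀ u ∈ W, ∀ v ∈ W, polar Q u v = 0 := by
    intro u hu v hv
    have h1 := hW _ (W.add_mem hu hv)
    rw [Q_add, hW u hu, hW v hv] at h1
    simpa using h1
  have hsne : s ≠ 0 := by
    rintro rfl
    apply hne
    rw [polar_zero_left, zero_smul, smul_zero, sub_zero]
  set x := siegel Q s s' (hW s hs) (hpol s hs s' hs') with hx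
  have hxa : ∀ v, x v = v + (polar Q s v • s' - polar Q s' v • s) := by
    intro v
    rw [hx, siegel_apply, hW s' hs', zero_mul, zero_smul, sub_zero, add_sub_assoc]
  have hxW : ∀ v ∈ W, x v = v := by
    intro v hv
    rw [hxa, hpol s hs v hv, hpol s' hs' v hv, zero_smul, zero_smul, sub_zero, add_zero]
  have hmem : polar Q s v₀ • s' - polar Q s' v₀ • s ∈ W := W.sub_mem (W.smul_mem _ hs') (W.smul_mem _ hs)
  have hbad : x v₀ ∉ W' := by
    intro h1
    rw [hxa] at h1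
    exact hne (hd _ hmem ((W'.add_mem_iff_right hv₀).1 h1))
  have hxT : x ∉ T := fun hxT => not_fs_ts hd hW hs hs' hv₀ hne (hpol s hs s' hs') (hT x hxT)
  refine p.sw hE (A0 := Cfsg.Agent.H883.Bridge.stab W) (fun a ha => sq_mem (hT a ha)) (siegel_mem_E _ _) hxT ?_
  intro g hg hgx
  have hxk : ∀ v, x ((x⁻¹ * g * x) v) = g (x v) := conj_app x g
  set k := x⁻¹ * g * x with hk
  rcases hT g hg with h1 | h1
  · exact h1.1
  exfalso
  rcases hT k hgx with h2 | h2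
  · have h3 : k s ∈ W := (h2.1 s).1 hs
    have h4 := hxk s
    rw [hxW s hs, hxW _ h3] at h4
    have h5 : g s ∈ W' := (h1.1 s).1 hs
    rw [← h4] at h5
    exact hsne ((LinearEquiv.map_eq_zero_iff k).1 (hd _ h3 h5))
  · obtain ⟨v, rfl⟩ := k.surjective v₀
    have hv : v ∈ W := (h2.1 v).2 hv₀
    apply hbad
    rw [hxk, hxW v hv]
    exact (h1.1 v).1 hv

end Swap

section Exist

variable {F V : Type*} [Field F] [AddCommGroup V] [Module F V] {Q : QuadraticForm F V} {W W' : Submodule F V}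

/-- hyperbolic pairs in nondegenerate subspaces of dimension at least three -/
theorem Perp.exists_hyp [Finite F] (hQ : Nondeg Q) (hP : Perp Q W W') (hd : 3 ≤ Module.finrank F W) :
    ∃ e ∈ W, ∃ f ∈ W, Hyp Q e f := by
  obtain ⟨e, he, he0, hQe⟩ := exists_sing_mem (Q := Q) W hd
  obtain ⟨y, hy, hey⟩ : ∃ y ∈ W, polar Q e y ≠ 0 := by
    by_contra hcon
    push Not at hcon
    exact he0 (hP.zero hQ he hcon)
  obtain ⟨z, hzW, hez⟩ : ∃ z ∈ W, polar Q e z = 1 := ⟨(polar Q e y)⁻¹ • y, W.smul_mem _ hy, by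
    rw [polar_smul_right, smul_eq_mul, inv_mul_cancel₀ hey]⟩
  refine ⟨e, he, z + (-Q z) • e, W.add_mem hzW (W.smul_mem _ he), hQe, ?_, ?_⟩
  · rw [Q_add, QuadraticMap.map_smul, hQe, polar_smul_right, polar_comm Q z e, hez]
    simp
  · rw [polar_add_right, polar_smul_right, polar_self_of_sing hQe, hez]
    simp

theorem mem_iff_of_map {g : V ≃ₗ[F] V} {D D' : Submodule F V} (h : D.map (g : V →ₗ[F] V) = D') (v : V) :
    v ∈ D ↔ g v ∈ D' := by
  rw [← h]
  constructor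
  · intro hv
    exact Submodule.mem_map_of_mem hv
  · intro hv
    obtain ⟨w, hw, e⟩ := Submodule.mem_map.1 hv
    rwa [← g.injective e]

theorem fs_of_mem {D : Fin 2 → Submodule F V} {g : V ≃ₗ[F] V} (hg : g ∈ stabFamily D) :
    Fixes (D 0) (D 1) g ∨ Swaps (D 0) (D 1) g := by
  obtain ⟨σ, hσ⟩ := hg
  have h0 := mem_iff_of_map (hσ 0)
  have h1 := mem_iff_of_map (hσ 1)
  have hne : σ 0 ≠ σ 1 := fun e => absurd (σ.injective e) (by decide)
  rcases Fin.exists_fin_two.1 ⟨σ 0, rfl⟩ with e0 | e0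
  · left
    have e1 : σ 1 = 1 := by
      rcases Fin.exists_fin_two.1 ⟨σ 1, rfl⟩ with e1 | e1
      · exact absurd (e0.trans e1.symm) hne
      · exact e1
    rw [e0] at h0
    rw [e1] at h1
    exact ⟨h0, h1⟩
  · right
    have e1 : σ 1 = 0 := by
      rcases Fin.exists_fin_two.1 ⟨σ 1, rfl⟩ with e1 | e1
      · exact e1
      · exact absurd (e0.trans e1.symm) hne
    rw [e0] at h0
    rw [e1] at h1
    exact ⟨h0, h1⟩

theorem mem_of_stab {D : Fin 2 → Submodule F V} {g : V ≃ₗ[F] V} (h0 : g ∈ Cfsg.Agent.H883.Bridge.stab (D 0))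
    (h1 : g ∈ Cfsg.Agent.H883.Bridge.stab (D 1)) : g ∈ stabFamily D := by
  refine ⟨1, fun i => ?_⟩
  rw [Equiv.Perm.one_apply]
  fin_cases i
  · exact mem_stab_iff_map.1 h0
  · exact mem_stab_iff_map.1 h1

end Exist

section Rows

open scoped MatrixGroups

variable {P : Type*} [Group P] {A : Subgroup P} {Γ : Subgroup (MulAut P)} {F : Type*} [Field F] {ι : Type} [Fintype ι]
  [DecidableEq ι]

/-- the preimage of `A` in the isometry group -/
theorem exists_pre (hA : IsCoatom A) {Q : QuadraticForm F (ι → F)} (hG : Good Q) (m : Model P (Cfsg.Geo.omegaGL (Q : (ι → F) → F)))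
    {M : Subgroup (GL ι F)} {M' : Subgroup ((ι → F) ≃ₗ[F] (ι → F))} (hM : ∀ g, g ∈ M ↔ glEquiv ι F g ∈ M')
    (hAM : m.hat A ≤ M) (hE : ¬ E Q ≤ M') :
    IsPre (E Q) (M' ⊓ E Q) A ∧ ∀ g, g ∈ m.hat A ↔ glEquiv ι F g ∈ M' ⊓ E Q := by
  have hmax := m.isMaximalIn hA
  have h1 : m.hat A = M ⊓ Cfsg.Geo.omegaGL (Q : (ι → F) → F) := by
    rcases hmax.2 (M ⊓ Cfsg.Geo.omegaGL (Q : (ι → F) → F)) (le_inf hAM (m.hat_le A)) inf_le_right with h | h
    · exact h.symm
    · exfalso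
      apply hE
      intro x hx
      obtain ⟨g, rfl⟩ := (glEquiv ι F).surjective x
      have h2 := (mem_omegaGL_iff hG g).2 hx
      rw [← h] at h2
      exact (hM g).1 (mem_inf.1 h2).1
  have h2 := (isPre_hat m A).map (glEquiv ι F)
  rw [map_omegaGL_eq_E hG, h1, map_inf_omegaGL hG M M' hM] at h2
  refine ⟨h2, fun g => ?_⟩
  rw [h1, mem_inf, mem_inf, hM, mem_omegaGL_iff hG]

/-- **no stabiliser of a nondegenerate subspace**: `W` and `W'` complementary, orthogonal, with hyperbolic pairs. -/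
theorem om_nondeg [Finite F] (hE : EPT A Γ) {Qf : (ι → F) → F} (m : Model P (Cfsg.Geo.omegaGL Qf)) (h5 : 5 ≤ Fintype.card ι)
    (hQ : Cfsg.Geo.IsNondegenerateQuadraticForm Qf) {W W' : Submodule F (ι → F)}
    (hperp : ∀ w ∈ W, ∀ w' ∈ W', polar Qf w w' = 0) (hc : IsCompl W W') {e₁ f₁ e₂ f₂ : ι → F} (he₁ : e₁ ∈ W)
    (hf₁ : f₁ ∈ W) (he₂ : e₂ ∈ W') (hf₂ : f₂ ∈ W') (h1 : Qf e₁ = 0) (h2 : Qf f₁ = 0) (h3 : polar Qf e₁ f₁ = 1)
    (h4 : Qf e₂ = 0) (h6 : Qf f₂ = 0) (h7 : polar Qf e₂ f₂ = 1)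
    (hA : m.hat A ≤ Cfsg.Geo.subspaceStabilizer W) : False := by
  obtain ⟨Q, rfl, hnd⟩ := exists_quadraticForm hQ
  have hG := good_of_card hnd h5
  have hfr : Frm Q W W' e₁ f₁ e₂ f₂ :=
    { perp := hperp
      disj := fun v hv hv' => Submodule.disjoint_def.1 hc.disjoint v hv hv'
      sup := fun v => by
        have hv : v ∈ W ⊔ W' := by rw [hc.sup_eq_top]; exact Submodule.mem_top
        obtain ⟨w, hw, w', hw', e⟩ := Submodule.mem_sup.1 hv
        exact ⟨w, hw, w', hw', e.symm⟩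
      h1 := ⟨h1, h2, h3⟩
      h2 := ⟨h4, h6, h7⟩
      e1 := he₁
      f1 := hf₁
      e2 := he₂
      f2 := hf₂ }
  have hnot : ¬ E Q ≤ Cfsg.Agent.H883.Bridge.stab W := by
    intro hle
    have h8 := ((hle hfr.x_mem) e₁).1 he₁
    rw [hfr.x_e1] at h8
    exact hfr.h2.right_ne (hfr.disj _ h8 hf₂)
  obtain ⟨p, -⟩ := exists_pre hE.max hG m (M' := Cfsg.Agent.H883.Bridge.stab W) (fun g => Iff.rfl) hA hnot
  exact kill_nondeg hE hnd p rfl hfr

/-- **Om-C2t2**: pairs `{W, W^⊥}` -/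
theorem omC2t2 : Cfsg.Agent.H778.EP.OmC2t2 := by
  intro P _ _ hs A Γ hE F _ _ ι _ _ Qf m h7 hQ hD
  obtain ⟨k, D, hk, hD, hA⟩ := hD
  obtain ⟨Q, rfl, hnd⟩ := exists_quadraticForm hQ
  have hG := good_of_card hnd (by omega : 5 ≤ Fintype.card ι)
  have h01 : (0 : Fin 2) ≠ 1 := by decide
  have hdis : Disjoint (D 0) (D 1) := hD.decomp.indep.pairwiseDisjoint h01
  have hsup : D 0 ⊔ D 1 = ⊤ := by
    rw [← hD.decomp.iSup_eq_top]
    apply le_antisymm
    · exact sup_le (le_iSup D 0) (le_iSup D 1)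
    · refine iSup_le fun i => ?_
      fin_cases i
      · exact le_sup_left
      · exact le_sup_right
  have hP : Perp Q (D 0) (D 1) :=
    { perp := hD.orthogonal 0 1 h01
      disj := fun v hv hv' => Submodule.disjoint_def.1 hdis v hv hv'
      sup := fun v => by
        have hv : v ∈ D 0 ⊔ D 1 := by rw [hsup]; exact Submodule.mem_top
        obtain ⟨w, hw, w', hw', e⟩ := Submodule.mem_sup.1 hv
        exact ⟨w, hw, w', hw', e.symm⟩ }
  obtain ⟨e₁, he₁, f₁, hf₁, h1⟩ := hP.exists_hyp hnd (by rw [hD.decomp.finrank_eq]; omega)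
  obtain ⟨e₂, he₂, f₂, hf₂, h2⟩ := hP.symm.exists_hyp hnd (by rw [hD.decomp.finrank_eq]; omega)
  have hw : e₂ + f₂ ∈ D 1 := (D 1).add_mem he₂ hf₂
  have hw0 : Q (e₂ + f₂) ≠ 0 := by
    rw [Q_add, h2.left, h2.right, h2.pair]
    simp
  have hwne : e₂ + f₂ ≠ 0 := by
    intro e
    apply hw0
    rw [e, QuadraticMap.map_zero]
  have hss : polar Q e₁ f₁ ≠ 0 := by rw [h1.pair]; exact one_ne_zero
  have hnot : ¬ E Q ≤ stabFamily D := by
    intro hle
    exact not_fs_nondeg hP he₁ hf₁ hss h1.left hw hwne (hP.perp _ he₁ _ hw) (fs_of_mem (hle (siegel_mem_E _ _)))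
  obtain ⟨p, hmem⟩ := exists_pre hE.max hG m (M' := stabFamily D) (fun g => Iff.rfl) hA hnot
  have hle := kill_swap hE hnd p (fun g hg => fs_of_mem (mem_inf.1 hg).1) hP he₁ hf₁ hss h1.left hw hw0
  have heq : stabFamily D ⊓ E Q = Cfsg.Agent.H883.Bridge.stab (D 0) ⊓ E Q := by
    apply le_antisymm (le_inf hle inf_le_right)
    intro g hg
    exact ⟨mem_of_stab (mem_inf.1 hg).1 (hP.stab hnd (E_le_O (mem_inf.1 hg).2) (mem_inf.1 hg).1), (mem_inf.1 hg).2⟩
  exact kill_nondeg hE hnd p heq { hP with h1 := h1, h2 := h2, e1 := he₁, f1 := hf₁, e2 := he₂, f2 := hf₂ }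

/-- **Om-C2b**: pairs of complementary totally singular subspaces -/
theorem omC2b : Cfsg.Agent.H778.EP.OmC2b := by
  intro P _ _ hs A Γ hE F _ _ ι _ _ Qf m h7 hQ hD
  obtain ⟨hirr, k, D, hk, hD, hts, hA⟩ := hD
  obtain ⟨Q, rfl, hnd⟩ := exists_quadraticForm hQ
  have hG := good_of_card hnd (by omega : 5 ≤ Fintype.card ι)
  have h01 : (0 : Fin 2) ≠ 1 := by decide
  have hdis : Disjoint (D 0) (D 1) := hD.indep.pairwiseDisjoint h01
  have hd : ∀ v ∈ D 0, v ∈ D 1 → v = 0 := fun v hv hv' => Submodule.disjoint_def.1 hdis v hv hv'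
  have hsup : D 0 ⊔ D 1 = ⊤ := by
    rw [← hD.iSup_eq_top]
    apply le_antisymm
    · exact sup_le (le_iSup D 0) (le_iSup D 1)
    · refine iSup_le fun i => ?_
      fin_cases i
      · exact le_sup_left
      · exact le_sup_right
  have hfr : Module.finrank F (D 0) = k := hD.finrank_eq 0
  have : Nontrivial (D 0) := Module.nontrivial_of_finrank_pos (R := F) (by omega)
  obtain ⟨s, hs0⟩ := exists_ne (0 : D 0)
  obtain ⟨s', hli⟩ := exists_linearIndependent_pair_of_one_lt_finrank (R := F) (M := D 0) (by omega) hs0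
  have hs0' : (s : ι → F) ≠ 0 := fun e => hs0 (Subtype.ext e)
  have hpol : ∀ u ∈ D 0, ∀ v ∈ D 0, polar Q u v = 0 := by
    intro u hu v hv
    have h1 := hts 0 _ ((D 0).add_mem hu hv)
    rw [Q_add, hts 0 u hu, hts 0 v hv] at h1
    simpa using h1
  obtain ⟨v₀, hv₀, hsv⟩ : ∃ v₀ ∈ D 1, polar Q (s : ι → F) v₀ ≠ 0 := by
    by_contra hcon
    push Not at hcon
    apply hs0'
    apply hnd
    intro y
    have hy : y ∈ D 0 ⊔ D 1 := by rw [hsup]; exact Submodule.mem_top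
    obtain ⟨w, hw, w', hw', rfl⟩ := Submodule.mem_sup.1 hy
    rw [polar_add_right, hpol _ s.2 w hw, hcon w' hw', add_zero]
  have hne : polar Q (s : ι → F) v₀ • (s' : ι → F) - polar Q (s' : ι → F) v₀ • (s : ι → F) ≠ 0 := by
    intro e
    rw [LinearIndependent.pair_iff] at hli
    have h1 := hli (-polar Q (s' : ι → F) v₀) (polar Q (s : ι → F) v₀) (by
      apply Subtype.ext
      rw [Submodule.coe_add, Submodule.coe_smul, Submodule.coe_smul, Submodule.coe_zero, ← e]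
      module)
    exact hsv h1.2
  have hnot : ¬ E Q ≤ stabFamily D := by
    intro hle
    exact not_fs_ts hd (hts 0) s.2 s'.2 hv₀ hne (hpol _ s.2 _ s'.2) (fs_of_mem (hle (siegel_mem_E _ _)))
  obtain ⟨p, hmem⟩ := exists_pre hE.max hG m (M' := stabFamily D) (fun g => Iff.rfl) hA hnot
  have hle := kill_ts hE p (fun g hg => fs_of_mem (mem_inf.1 hg).1) hd (hts 0) s.2 s'.2 hv₀ hne
  rcases hirr (D 0) (by
    rintro _ ⟨g, hg, rfl⟩
    rintro _ ⟨v, hv, rfl⟩
    have h1 := hle ((hmem g).1 hg)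
    exact (h1 v).1 hv) with h1 | h1
  · rw [h1, finrank_bot] at hfr
    omega
  · rw [h1, finrank_top, Module.finrank_fintype_fun_eq_card] at hfr
    omega

end Rows

end Cfsg.Agent.H807.EP
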